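import Cfsg.Agent.H133.PB.AltOdd
import Cfsg.Agent.H133.PB.AltTwo

/-!
# `Row p` for the alternating groups (helper133)
-/

set_option autoImplicit false

namespace Cfsg.Agent.H133.PB

/-- **`Row p` for the alternating groups**, all primes. -/
theorem row_alt {n p : ℕ} (hn : 5 ≤ n) (hp : p.Prime) (hd : p ∣ Nat.card (alternatingGroup (Fin n))) :
    Row p (alternatingGroup (Fin n)) := by
  by_cases hp2 : p = 2
  · subst hp2
    exact row_alt_two hn
  · refine row_alt_odd hp hp2 hn ?_
    have : Nontrivial (Fin n) := Fin.nontrivial_iff_two_le.2 (by omega)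
    have h1 : 2 * Nat.card (alternatingGroup (Fin n)) = n.factorial := by
      rw [Nat.card_eq_fintype_card, two_mul_card_alternatingGroup, Fintype.card_perm, Fintype.card_fin]
    exact (hp.dvd_factorial).1 (h1 ▸ hd.trans (dvd_mul_left _ 2))

end Cfsg.Agent.H133.PB
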