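import Cfsg.Agent.H133.PB.Basic
import Cfsg.Agent.H732.PB.AltSplit
import Cfsg.Agent.H979.LieSplit
import Cfsg.Agent.Blocks.Knorr

/-!
# The row of the prime `p` for groups of Lie type of odd characteristic `p` (helper133)

* `exists_real_steinberg` : the Steinberg character of a split (B,N)-pair is real-valued of degree `p ^ k`, `0 < k`.
* `row_odd_of_hasSplit` : `Row p G` for a group of even order with `HasSplit p G`, `p` odd.
-/

set_option autoImplicit false

namespace Cfsg.Agent.H133.PB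

open Cfsg Cfsg.Agent Cfsg.Agent.Tits.Core Cfsg.Agent.Tits.Core.Bldg Cfsg.Agent.Tits.OfBN Cfsg.Agent.FixBN

universe u

theorem exists_real_steinberg {K : Type u} [Group K] [Finite K] {P : Cfsg.BNPair K} {p : ℕ} [Fact p.Prime]
    {U : Subgroup K} (h : Split P p U) (hne : P.S.Nonempty) :
    ∃ χ : K → ℂ, IsIrrCharacter K χ ∧ (∀ g, (χ g).im = 0) ∧ ∃ k : ℕ, 0 < k ∧ charDegree χ = p ^ k := by
  classical
  have hN : ((P.B ⊓ P.N).subgroupOf P.N).Normal := normal_subgroupOf P
  obtain ⟨M, cs, hcs⟩ := S0320.result P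
  have : Fintype P.S := Fintype.ofFinite _
  have : Fintype (K ⧸ P.B) := Fintype.ofFinite _
  have hC : Tits.OppRes.Cox cs := inferInstance
  obtain ⟨s₀, hs₀⟩ := hne
  set Δ := bldg P (Equiv.refl P.S) cs hcs with hΔ
  have S : FixBN.Sys Δ K p := FixBN.OfBN.sys (Equiv.refl P.S) cs hcs h
  set c : K ⧸ P.B := QuotientGroup.mk 1 with hc
  have hiso : ∀ (g : K) (x y : K ⧸ P.B), Δ.δ (g • x) (g • y) = Δ.δ x y := fun g x y => dist_smul P g x y
  have htr : ∀ x y x' y', Δ.δ x y = Δ.δ x' y' → ∃ g : K, g • x = x' ∧ g • y = y' :=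
    fun x y x' y' hd => Cfsg.Agent.Tits.OfBN.trans P x y x' y' hd
  -- the parabolic subgroups
  let Q : Finset P.S → Subgroup K := fun J =>
    { carrier := {g | Δ.δ c (g • c) ∈ WJ cs (J : Set P.S)}
      one_mem' := by
        show Δ.δ c ((1 : K) • c) ∈ WJ cs (J : Set P.S)
        rw [one_smul, (Δ.eq_one c c).2 rfl]
        exact one_mem _
      mul_mem' := by
        intro a b ha hb
        show Δ.δ c ((a * b) • c) ∈ WJ cs (J : Set P.S)
        have h1 : (a • c) ∈ Δ.Res (J : Set P.S) c := Δ.mem_Res.2 ha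
        have h2 : (a • b • c) ∈ Δ.Res (J : Set P.S) (a • c) := by
          rw [Δ.mem_Res, hiso]; exact hb
        rw [mul_smul]
        exact Δ.mem_Res.1 (Δ.mem_Res_trans h1 h2)
      inv_mem' := by
        intro a ha
        show Δ.δ c (a⁻¹ • c) ∈ WJ cs (J : Set P.S)
        rw [← hiso a, smul_inv_smul]
        have h1 : (a • c) ∈ Δ.Res (J : Set P.S) c := Δ.mem_Res.2 ha
        exact Δ.mem_Res.1 (Δ.mem_Res_symm h1) }
  have hQ : ∀ (J : Finset P.S) (g : K), g ∈ Q J ↔ Δ.δ c (g • c) ∈ WJ cs (J : Set P.S) := fun J g => Iff.rfl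
  -- the apartment
  let a : WP P → K ⧸ P.B := fun w => QuotientGroup.mk ((w.out : P.N) : K)
  have ha : ∀ v w, Δ.δ (a v) (a w) = v⁻¹ * w := by
    intro v w
    show dist P (QuotientGroup.mk ((v.out : P.N) : K)) (QuotientGroup.mk ((w.out : P.N) : K)) = _
    rw [dist_mk]
    have h1 : ((v.out : P.N) : K)⁻¹ * ((w.out : P.N) : K) = ((v.out⁻¹ * w.out : P.N) : K) := by push_cast; rfl
    rw [h1, wt_of_mem P (n := v.out⁻¹ * w.out) (LieExceptional.BNPairCore.self_mem_C _), QuotientGroup.mk_mul,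
      QuotientGroup.mk_inv, QuotientGroup.out_eq', QuotientGroup.out_eq']
  obtain ⟨h1, h2⟩ := H167.AltBldg.exists_char_alt Δ hiso htr a ha c Q hQ
  refine ⟨_, h1, ?_, ?_⟩
  · intro g
    rw [Complex.im_sum]
    refine Finset.sum_eq_zero fun J _ => ?_
    unfold fixedPointCharacter
    rcases neg_one_pow_eq_or ℂ J.card with h3 | h3 <;> rw [h3] <;> simp
  · obtain ⟨d, hd⟩ := Tits.Opp.exists_opp Δ c
    have h3 := h2 c 1 (one_smul _ _)
    have h4 : Nat.card {y : K ⧸ P.B // Δ.Opp c y ∧ (1 : K) • y = y} = Nat.card (S.U c) := by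
      have hstab : ∀ u ∈ S.U c, ∀ e, Δ.Opp c e → Δ.Opp c (u • e) := by
        intro u hu e he
        have h1 := S.iso u c e
        rw [S.fix c u hu] at h1
        exact h1.trans he
      refine Nat.card_congr (Equiv.ofBijective
        (fun v : S.U c => (⟨(v : K) • d, hstab v v.2 d hd, one_smul _ _⟩ :
          {y : K ⧸ P.B // Δ.Opp c y ∧ (1 : K) • y = y})) ⟨?_, ?_⟩).symm
      · intro v w hvw
        have h1 : (v : K) • d = (w : K) • d := congrArg Subtype.val hvw
        have h2 : ((w : K)⁻¹ * v) • d = d := by rw [mul_smul, h1, inv_smul_smul]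
        have h3 := S.free c d hd _ (mul_mem (inv_mem w.2) v.2) h2
        exact Subtype.ext (inv_mul_eq_one.1 h3).symm
      · rintro ⟨e, he, he'⟩
        obtain ⟨v, hv, rfl⟩ := S.trans c d e hd he
        exact ⟨⟨v, hv⟩, rfl⟩
    have h5 : (charDegree (fun g : K => ∑ J ∈ (Finset.univ : Finset P.S).powerset, (-1 : ℂ) ^ J.card *
        fixedPointCharacter (Q J) g) : ℂ) = ((Nat.card (S.U c) : ℕ) : ℂ) := by
      rw [← h4, ← h3]
      exact (Blocks.Knorr.charDegree_eq h1).symm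
    have h6 := Nat.cast_injective h5
    obtain ⟨k, hk⟩ := (S.isP c).exists_card_eq
    refine ⟨k, ?_, h6.trans hk⟩
    rw [Nat.pos_iff_ne_zero]
    rintro rfl
    -- the unipotent group is not trivial
    rw [pow_zero] at hk
    obtain ⟨V, hV⟩ := h.node s₀ hs₀
    obtain ⟨u, hu, huV⟩ := hV.ne
    have hu1 : u ≠ 1 := fun h4 => huV (h4 ▸ one_mem V)
    have hUc : U ≤ S.U c := by
      refine S.max c U h.isP ?_
      intro v hv
      rw [hc]
      show (QuotientGroup.mk (v * 1) : K ⧸ P.B) = QuotientGroup.mk 1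
      rw [eq_comm, QuotientGroup.eq]
      have := h.le hv
      simpa using this
    have h7 := (Subgroup.card_eq_one.1 hk) ▸ hUc hu
    exact hu1 (Subgroup.mem_bot.1 h7)

theorem exists_real_of_hasSplit {K : Type u} [Group K] [Finite K] {p : ℕ} [Fact p.Prime] (h : HasSplit p K) :
    ∃ χ : K → ℂ, IsIrrCharacter K χ ∧ (∀ g, (χ g).im = 0) ∧ ∃ k : ℕ, 0 < k ∧ charDegree χ = p ^ k := by
  obtain ⟨P, U, hne, hU⟩ := h
  exact exists_real_steinberg hU hne

theorem two_dvd_of_bnPair {K : Type u} [Group K] [Finite K] (P : Cfsg.BNPair K) (hne : P.S.Nonempty) :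
    2 ∣ Nat.card K := by
  obtain ⟨s, hs⟩ := hne
  by_contra h2
  have hodd : ¬ 2 ∣ orderOf s := fun h => h2 (h.trans (orderOf_dvd_natCard s))
  have hsB : s ∈ P.B := by
    have h1 : s ^ (orderOf s + 1) = s := by rw [pow_succ, pow_orderOf_eq_one, one_mul]
    obtain ⟨k, hk⟩ : ∃ k, orderOf s + 1 = 2 * k := ⟨(orderOf s + 1) / 2, by omega⟩
    rw [← h1, hk, pow_mul, pow_two]
    exact pow_mem (P.sq_mem s hs) k
  apply P.conj_ne s hs
  ext x
  constructor
  · rintro ⟨b, hb, rfl⟩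
    exact mul_mem (mul_mem hsB hb) hsB
  · intro hx
    refine ⟨s⁻¹ * x * s⁻¹, mul_mem (mul_mem (inv_mem hsB) hx) (inv_mem hsB), ?_⟩
    show s * (s⁻¹ * x * s⁻¹) * s = x
    group

/-- **`Row p G` for the groups with a split (B,N)-pair of odd characteristic `p`.** -/
theorem row_odd_of_hasSplit {K : Type u} [Group K] [Finite K] {p : ℕ} [hp : Fact p.Prime] (h : HasSplit p K)
    (hp2 : p ≠ 2) : Row p K := by
  obtain ⟨χ, hχ, hr, k, hk, hd⟩ := exists_real_of_hasSplit h
  obtain ⟨P, U, hne, hU⟩ := h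
  refine ⟨2, Nat.prime_two, fun h => hp2 h.symm, two_dvd_of_bnPair P hne, BD.of_real ⟨χ, hχ⟩ hr ?_ ?_⟩
  · show Odd (charDegree χ)
    rw [hd]
    exact (hp.out.odd_of_ne_two hp2).pow
  · show p ∣ charDegree χ
    rw [hd]
    exact dvd_pow_self p hk.ne'

/-- **`Row p G` for the simple groups of Lie type of odd characteristic `p`.** -/
theorem row_odd_of_isLieTypeChar {G : Type u} [Group G] [Finite G] [IsSimpleGroup G] {p : ℕ} (hp : p.Prime)
    (hp2 : p ≠ 2) (h : IsLieTypeChar p G) : Row p G :=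
  have := Fact.mk hp
  row_odd_of_hasSplit (H979.LieSplit.hasSplit_of_isLieTypeChar hp h) hp2

end Cfsg.Agent.H133.PB
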